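import Mathlib
import Cfsg.Agent.S2299
import Cfsg.Agent.S2300
import Cfsg.Agent.S2302
import Cfsg.Agent.S2321
import Cfsg.Agent.S2323
import Cfsg.Agent.Char.Quot

/-! Facts on `SL₂(q)` used in Herzog's theorem. -/

set_option autoImplicit false
set_option linter.unusedSectionVars false

namespace Cfsg.Agent.Herz

open Cfsg.Agent.Char Subgroup
open scoped MatrixGroups

theorem exists_irr_ne_one {G : Type*} [Group G] [Finite G] {φ : G → ℂ} (hφ : IsCharacter G φ) {g : G}
    (h : φ g ≠ φ 1) : ∃ θ : IrrCharacter G, θ ≠ irrOne G ∧ charDegree (θ : G → ℂ) ≤ charDegree φ := by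
  classical
  have := Fintype.ofFinite G
  obtain ⟨c, hc, e⟩ := hφ.exists_coeff
  by_contra hn
  push Not at hn
  have h0 : ∀ θ : IrrCharacter G, θ ≠ irrOne G → c θ = 0 := fun θ hθ => by
    by_contra h1
    have := hφ.one_le_of_inner_ne_zero θ.2 (by rw [hc]; exact_mod_cast h1)
    rw [← coe_charDegree_irr, ← coe_charDegree_of_isCharacter hφ, Complex.natCast_re,
      Complex.natCast_re, Nat.cast_le] at this
    exact (hn θ hθ).not_ge this
  refine h ?_
  rw [e, Finset.sum_eq_single (irrOne G) (fun θ _ hθ => by simp [h0 θ hθ]) (by simp)]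
  rfl

theorem eq_irrOne_of_card {G : Type*} [Group G]
    (h : Nat.card {χ : IrrCharacter G // (χ : G → ℂ) 1 = 1} = 1) {θ : IrrCharacter G}
    (h1 : (θ : G → ℂ) 1 = 1) : θ = irrOne G :=
  congrArg Subtype.val ((Nat.card_eq_one_iff_unique.1 h).1.elim
    (⟨θ, h1⟩ : {χ : IrrCharacter G // (χ : G → ℂ) 1 = 1}) ⟨irrOne G, rfl⟩)

variable {F : Type*} [Field F] [Fintype F]

theorem min_deg (hodd : Odd (Fintype.card F)) (h5 : 5 ≤ Fintype.card F) {φ : PSL(2, F) → ℂ}
    (hφ : IsCharacter _ φ) {g : PSL(2, F)} (h : φ g ≠ φ 1) :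
    Fintype.card F ≤ 2 * charDegree φ + 1 := by
  obtain ⟨g, rfl⟩ := QuotientGroup.mk'_surjective _ g
  obtain ⟨θ, h1, h2⟩ := exists_irr_ne_one (hφ.comp (QuotientGroup.mk' (center SL(2, F)))) (g := g)
    (by simpa using h)
  rw [charDegree_comp] at h2
  obtain ⟨a, b⟩ := S2299.result hodd
  obtain ⟨k, hk⟩ := hodd
  have h3 := a θ θ.2
  rw [← coe_charDegree_irr] at h3
  rcases h3 with e | e | e | e | e | e
  · exact absurd (eq_irrOne_of_card (b h5).1 (by rwa [coe_charDegree_irr] at e)) h1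
  · have := Nat.cast_injective e; omega
  · have : charDegree (θ : SL(2, F) → ℂ) = Fintype.card F + 1 := by exact_mod_cast e
    omega
  · have : charDegree (θ : SL(2, F) → ℂ) + 1 = Fintype.card F := by
      exact_mod_cast eq_sub_iff_add_eq.1 e
    omega
  · have := Nat.cast_injective e; omega
  · have := Nat.cast_injective e; omega

/-- upper unitriangular matrix -/
def uu (b : F) : SL(2, F) := ⟨!![1, b; 0, 1], by simp [Matrix.det_fin_two]⟩

theorem coe_uu (b : F) : (uu b).1 = !![1, b; 0, 1] := rfl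

variable [CharP F 2]

theorem uu_mul_self (b : F) : uu b * uu b = 1 := by
  ext i j
  fin_cases i <;> fin_cases j <;> simp [coe_uu, Matrix.mul_apply, Fin.sum_univ_two, CharTwo.add_self_eq_zero]

theorem orderOf_uu_one : orderOf (uu (1 : F)) = 2 :=
  orderOf_eq_prime (by rw [sq, uu_mul_self]) fun e => by
    simpa [coe_uu] using congrArg (fun g : SL(2, F) => g.1 0 1) e

theorem deg_sub (h4 : 4 ≤ Fintype.card F) {χ : IrrCharacter SL(2, F)} (h1 : χ ≠ irrOne _)
    {t : SL(2, F)} (ht : orderOf t = 2) : χ.1 1 - χ.1 t = Fintype.card F := by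
  obtain ⟨c, hc⟩ := isConj_iff.1 (S2302.result (uu 1) t orderOf_uu_one ht).1
  rw [← hc, χ.2.isCharacter.isClassFunction]
  obtain ⟨a, b⟩ := S2300.result (F := F)
  obtain ⟨h2, h3⟩ := S2323.result h4 χ.1 χ.2 (uu 1) rfl
  rcases a χ χ.2 with e | e | e | e
  · exact absurd (eq_irrOne_of_card (b h4).1 e) h1
  · rw [h3 e, e]; ring
  · rw [(S2321.result χ.1 χ.2 e (uu 1)).2.2 (by simp [coe_uu]) (by simp [coe_uu]) (by simp [coe_uu]), e, sub_zero]
  · rw [h2 e, e]; ring

theorem eq_uu {g : SL(2, F)} (h1 : g.1 1 0 = 0) (h2 : g.1 0 0 = g.1 1 1) : g = uu (g.1 0 1) := by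
  have hd := g.2
  rw [Matrix.det_fin_two, h1, h2, mul_zero, sub_zero] at hd
  have h3 : g.1 1 1 = 1 := by
    rcases mul_self_eq_one_iff.1 hd with e | e
    · exact e
    · rw [e, CharTwo.neg_eq]
  ext i j
  fin_cases i <;> fin_cases j <;> simp [coe_uu, h1, h2, h3]

theorem eq_uu_of_commute {g : SL(2, F)} (h : Commute g (uu 1)) : g = uu (g.1 0 1) := by
  have h0 := congrArg (fun g : SL(2, F) => g.1 0 0) h.eq
  have h1 := congrArg (fun g : SL(2, F) => g.1 0 1) h.eq
  simp [coe_uu, Matrix.mul_apply, Fin.sum_univ_two] at h0 h1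
  exact eq_uu h0 (by linear_combination h1)

theorem sq_eq_one_of_commute {t g : SL(2, F)} (ht : orderOf t = 2) (h : Commute g t) : g * g = 1 := by
  obtain ⟨c, hc⟩ := isConj_iff.1 (S2302.result t (uu 1) ht orderOf_uu_one).1
  have h1 : Commute (c * g * c⁻¹) (uu 1) := by
    rw [← hc]; exact h.map (MulAut.conj c)
  have h2 : (c * g * c⁻¹) * (c * g * c⁻¹) = 1 := by rw [eq_uu_of_commute h1, uu_mul_self]
  exact (MulAut.conj c).injective (by rw [map_mul, map_one]; exact h2)

theorem diag_eq_of_sq {x : SL(2, F)} (h : x * x = 1) : x.1 0 0 = x.1 1 1 := by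
  have h2 : (2 : F) = 0 := CharTwo.two_eq_zero
  have hd := x.2
  rw [Matrix.det_fin_two] at hd
  have h0 := congrArg (fun g : SL(2, F) => g.1 0 0) h
  have h1 := congrArg (fun g : SL(2, F) => g.1 1 1) h
  simp [Matrix.mul_apply, Fin.sum_univ_two] at h0 h1
  have : (x.1 0 0 - x.1 1 1) ^ 2 = 0 := by
    linear_combination h0 + h1 - 2 * hd - (2 * x.1 0 1 * x.1 1 0) * h2
  exact sub_eq_zero.1 (pow_eq_zero_iff two_ne_zero |>.1 this)

theorem aut_sq_uu (σ : SL(2, F) ≃* SL(2, F)) (hσ : ∀ b, σ (uu b) = uu b) {x : SL(2, F)}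
    (hx : x * x = 1) : σ (σ x) = x := by
  have h2 : (2 : F) = 0 := CharTwo.two_eq_zero
  have ha := diag_eq_of_sq hx
  by_cases hc : x.1 1 0 = 0
  · rw [eq_uu hc ha, hσ, hσ]
  have hy : σ x * σ x = 1 := by rw [← map_mul, hx, map_one]
  have ha' := diag_eq_of_sq hy
  have hc' : (σ x).1 1 0 ≠ 0 := fun e => by
    have h := eq_uu e ha'
    rw [← hσ] at h
    exact hc (by rw [σ.injective h]; simp [coe_uu])
  have hd := x.2
  have hd' := (σ x).2
  rw [Matrix.det_fin_two, ha] at hd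
  rw [Matrix.det_fin_two, ha'] at hd'
  obtain ⟨m, hm⟩ : ∃ m, x.1 1 0 * m = 1 := ⟨_, mul_inv_cancel₀ hc⟩
  have h3 : (x * uu m) * (x * uu m) * (x * uu m) = 1 := by
    ext i j
    fin_cases i <;> fin_cases j <;> simp [coe_uu, Matrix.mul_apply, Fin.sum_univ_two, ha] <;>
      (clear * - hd hm; grind)
  have h4 : (σ x * uu m) * (σ x * uu m) * (σ x * uu m) = 1 := by
    rw [← hσ, ← map_mul, ← map_mul, ← map_mul, h3, map_one]
  have h5 := congrArg (fun g : SL(2, F) => g.1 1 0) h4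
  simp [coe_uu, Matrix.mul_apply, Fin.sum_univ_two, ha'] at h5
  have h6 : (σ x).1 1 0 = x.1 1 0 := by clear * - hd' hm h5 hc'; grind
  have h7 : σ x = uu (m * (x.1 1 1 + (σ x).1 1 1)) * x * uu (m * (x.1 1 1 + (σ x).1 1 1)) := by
    ext i j
    fin_cases i <;> fin_cases j <;> simp [coe_uu, Matrix.mul_apply, Matrix.vecMul, dotProduct, Fin.sum_univ_two, ha, ha', h6] <;>
      (clear * - hd hd' hm h6; grind)
  generalize m * (x.1 1 1 + (σ x).1 1 1) = l at h7
  conv_lhs => rw [h7, map_mul, map_mul, hσ, h7]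
  rw [← mul_assoc, ← mul_assoc, uu_mul_self, one_mul, mul_assoc, uu_mul_self, mul_one]

theorem aut_sq (σ : SL(2, F) ≃* SL(2, F)) {t : SL(2, F)} (ht : orderOf t = 2)
    (hσ : ∀ g, Commute g t → σ g = g) {x : SL(2, F)} (hx : x * x = 1) : σ (σ x) = x := by
  obtain ⟨c, hc⟩ := isConj_iff.1 (S2302.result (uu 1) t orderOf_uu_one ht).1
  have h := aut_sq_uu (((MulAut.conj c).trans σ).trans (MulAut.conj c).symm) (fun b => by
    have : Commute (uu b) (uu (1 : F)) := by
      ext i j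
      fin_cases i <;> fin_cases j <;> simp [coe_uu, Matrix.mul_apply, Fin.sum_univ_two, add_comm]
    simp only [MulEquiv.trans_apply]
    rw [hσ _ (by rw [← hc]; exact this.map (MulAut.conj c)), MulEquiv.symm_apply_apply])
    (x := (MulAut.conj c).symm x) (by rw [← map_mul, hx, map_one])
  simpa only [MulEquiv.trans_apply, MulEquiv.apply_symm_apply, EmbeddingLike.apply_eq_iff_eq] using h

end Cfsg.Agent.Herz
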